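import Mathlib
import Cfsg.Agent.Chars.Basic
import Cfsg.Agent.Chars.Basic.ClassSum
import Cfsg.Agent.Chars.Exceptional.NormTwo
import Cfsg.Agent.Chars.Apps.TI

/-!
An element times the nonidentity elements of a self-centralizing TI subgroup: all products are conjugate
when each `y * (g * u * g⁻¹)` is conjugate to `y * u`.
-/

set_option autoImplicit false
set_option linter.unusedSectionVars false

namespace CfsgLib.RankThree

open Cfsg CfsgLib.Chars
open scoped ComplexConjugate

universe u

variable {G : Type u} [Group G] [Fintype G] {B : Subgroup G}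

/-- Conjugation by an element of the normalizer. -/
def normConj (B : Subgroup G) {x : G} (hx : x ∈ Subgroup.normalizer (B : Set G)) : B →* B where
  toFun b := ⟨x⁻¹ * (b : G) * x, by
    simpa using (Subgroup.mem_normalizer_iff.1 (inv_mem hx) (b : G)).1 b.2⟩
  map_one' := Subtype.ext (by simp)
  map_mul' a b := Subtype.ext (by simp [mul_assoc])

theorem normConj_coe {x : G} (hx : x ∈ Subgroup.normalizer (B : Set G)) (b : B) :
    (normConj B hx b : G) = x⁻¹ * b * x := rfl

theorem normConj_injective {x : G} (hx : x ∈ Subgroup.normalizer (B : Set G)) :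
    Function.Injective (normConj B hx) := fun a b h => by
  have h' := congrArg Subtype.val h
  simp only [normConj_coe, mul_left_inj, mul_right_inj] at h'
  exact Subtype.ext h'

theorem normConj_bijective {x : G} (hx : x ∈ Subgroup.normalizer (B : Set G)) :
    Function.Bijective (normConj B hx) :=
  ⟨normConj_injective hx, Finite.injective_iff_surjective.1 (normConj_injective hx)⟩

/-- The hypotheses on the subgroup. -/
structure TIData (B : Subgroup G) : Prop where
  ne_bot : B ≠ ⊥
  cent : ∀ u ∈ B, u ≠ 1 → Subgroup.centralizer ({u} : Set G) = B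
  ti : ∀ (g u : G), u ∈ B → u ≠ 1 → g * u * g⁻¹ ∈ B → g ∈ Subgroup.normalizer (B : Set G)

namespace TIData

theorem comm (h : TIData B) : IsMulCommutative B :=
  ⟨⟨fun a b => Subtype.ext (by
    show (a : G) * b = b * a
    by_cases ha : (a : G) = 1
    · simp [ha]
    · exact (Subgroup.mem_centralizer_singleton_iff.1 ((h.cent _ a.2 ha).symm ▸ b.2)).symm)⟩⟩

/-- A linear character fixed by an element outside `B` is trivial. -/
theorem eq_one_of_fixed (h : TIData B) {x : G} (hx : x ∈ Subgroup.normalizer (B : Set G))
    (hxB : x ∉ B) (l : B →* ℂˣ) (hl : l.comp (normConj B hx) = l) : l = 1 := by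
  have := h.comm
  have hinj : Function.Injective fun b : B => b⁻¹ * normConj B hx b := by
    intro a b hab
    simp only at hab
    have e : normConj B hx (a * b⁻¹) = a * b⁻¹ := by
      rw [map_mul, map_inv]
      have h1 : normConj B hx a = a * (b⁻¹ * normConj B hx b) := by rw [← hab, mul_inv_cancel_left]
      rw [h1, ← mul_assoc, mul_inv_cancel_right]
    by_contra hne
    have hne' : ((a * b⁻¹ : B) : G) ≠ 1 := fun h0 => hne (mul_inv_eq_one.1 (Subtype.ext h0))
    refine hxB ?_
    rw [← h.cent _ (a * b⁻¹).2 hne', Subgroup.mem_centralizer_singleton_iff]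
    have e' := congrArg Subtype.val e
    rw [normConj_coe] at e'
    calc x * ((a * b⁻¹ : B) : G) = x * (x⁻¹ * ((a * b⁻¹ : B) : G) * x) := by rw [e']
      _ = _ := by group
  refine MonoidHom.ext fun c => ?_
  obtain ⟨b, rfl⟩ := (Finite.injective_iff_surjective.1 hinj) c
  rw [MonoidHom.one_apply, map_mul, map_inv, ← MonoidHom.comp_apply, hl, inv_mul_cancel]

end TIData

/-- The difference of two linear characters. -/
noncomputable def linDiff (l m : B →* ℂˣ) : B → ℂ := fun b => (l b : ℂ) - (m b : ℂ)

theorem linDiff_one (l m : B →* ℂˣ) : linDiff l m 1 = 0 := by simp [linDiff]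

open Classical in
theorem indFun_linDiff_coe (h : TIData B) (l m : B →* ℂˣ) (b : B) :
    indFun B (linDiff l m) (b : G) = (Nat.card B : ℂ)⁻¹ *
      ∑ x : G, if hx : x ∈ Subgroup.normalizer (B : Set G) then linDiff l m (normConj B hx b) else 0 := by
  unfold indFun
  congr 1
  refine Finset.sum_congr rfl fun x _ => ?_
  split_ifs with hx
  · rw [← normConj_coe hx b, Apps.extendByZero_apply_coe]
  · by_cases hm : x⁻¹ * (b : G) * x ∈ B
    · rw [Apps.extendByZero_apply_mem B _ hm]
      have hb : (b : G) = 1 := by
        by_contra hb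
        have := h.ti x⁻¹ b b.2 hb (by simpa using hm)
        exact hx (inv_inv x ▸ inv_mem this)
      have : (⟨x⁻¹ * (b : G) * x, hm⟩ : B) = 1 := Subtype.ext (by simp [hb])
      rw [this, linDiff_one]
    · exact Apps.extendByZero_apply_notMem B _ hm

theorem classInner_linChar [Fintype B] (l m : B →* ℂˣ) [Decidable (l = m)] :
    classInner (fun b : B => (l b : ℂ)) (fun b : B => (m b : ℂ)) = if l = m then 1 else 0 := by
  rw [show (fun b : B => (l b : ℂ)) = (linChar l : B → ℂ) from rfl,
    show (fun b : B => (m b : ℂ)) = (linChar m : B → ℂ) from rfl, classInner_irr]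
  by_cases he : l = m <;> simp [he, linChar_injective.eq_iff]

theorem isCharacter_lin (l : B →* ℂˣ) : IsCharacter B fun b : B => (l b : ℂ) :=
  isCharacter_coe (linChar l)

theorem isGen_indFun_linDiff (l m : B →* ℂˣ) :
    IsGeneralizedCharacter G (indFun B (linDiff l m)) :=
  ⟨_, _, Induced.isCharacter_indFun B (isCharacter_lin l), Induced.isCharacter_indFun B (isCharacter_lin m),
    Induced.indFun_sub B (fun b : B => (l b : ℂ)) fun b : B => (m b : ℂ)⟩

open Classical in
/-- The norm of the induced difference. -/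
theorem classInner_indFun_linDiff (h : TIData B) [Fintype B] {l m : B →* ℂˣ} (hl : l ≠ 1) (hm : m ≠ 1)
    (hlm : ∀ x, ∀ hx : x ∈ Subgroup.normalizer (B : Set G), l.comp (normConj B hx) ≠ m) :
    classInner (indFun B (linDiff l m)) (indFun B (linDiff l m)) = 2 := by
  rw [Apps.classInner_indFun_left B _ _ (Apps.indFun_isClassFunction B _)]
  have hne : l ≠ m := by
    intro he
    refine hlm 1 (one_mem _) (he ▸ MonoidHom.ext fun b => congrArg l (Subtype.ext ?_))
    simp [normConj_coe]
  have hfun : (fun b : B => indFun B (linDiff l m) (b : G)) = fun b => (Nat.card B : ℂ)⁻¹ *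
      ∑ x : G, if hx : x ∈ Subgroup.normalizer (B : Set G) then linDiff l m (normConj B hx b) else 0 :=
    funext (indFun_linDiff_coe h l m)
  rw [hfun, classInner]
  simp only [map_mul, map_inv₀, map_natCast, map_sum, Finset.mul_sum]
  rw [Finset.sum_comm]
  have key : ∀ x : G, (∑ b : B, (Nat.card B : ℂ)⁻¹ * (linDiff l m b * ((Nat.card B : ℂ)⁻¹ *
      conj (if hx : x ∈ Subgroup.normalizer (B : Set G) then linDiff l m (normConj B hx b) else 0)))) =
      if x ∈ B then 2 * (Nat.card B : ℂ)⁻¹ else 0 := by
    intro x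
    by_cases hx : x ∈ Subgroup.normalizer (B : Set G)
    · simp only [dif_pos hx]
      have hll := classInner_linChar l (l.comp (normConj B hx))
      have hlm' := classInner_linChar l (m.comp (normConj B hx))
      have hml := classInner_linChar m (l.comp (normConj B hx))
      have hmm := classInner_linChar m (m.comp (normConj B hx))
      rw [if_neg (show m ≠ l.comp (normConj B hx) from fun e => hlm x hx e.symm)] at hml
      have hlm'' : l ≠ m.comp (normConj B hx) := by
        intro e
        refine hlm x⁻¹ (inv_mem hx) (MonoidHom.ext fun b => ?_)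
        rw [e]
        simp only [MonoidHom.comp_apply]
        exact congrArg m (Subtype.ext (by simp [normConj_coe, mul_assoc]))
      rw [if_neg hlm''] at hlm'
      have hsum : (∑ b : B, (Nat.card B : ℂ)⁻¹ * (linDiff l m b * ((Nat.card B : ℂ)⁻¹ *
          conj (linDiff l m (normConj B hx b))))) = (Nat.card B : ℂ)⁻¹ *
          (classInner (fun b : B => (l b : ℂ)) (fun b : B => (l.comp (normConj B hx) b : ℂ))
          - classInner (fun b : B => (l b : ℂ)) (fun b : B => (m.comp (normConj B hx) b : ℂ))
          - classInner (fun b : B => (m b : ℂ)) (fun b : B => (l.comp (normConj B hx) b : ℂ))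
          + classInner (fun b : B => (m b : ℂ)) (fun b : B => (m.comp (normConj B hx) b : ℂ))) := by
        simp only [classInner, linDiff, MonoidHom.comp_apply, map_sub, mul_add, mul_sub, Finset.mul_sum,
          ← Finset.sum_sub_distrib, ← Finset.sum_add_distrib]
        exact Finset.sum_congr rfl fun b _ => by ring
      rw [hsum, hll, hmm, hlm', hml]
      by_cases hxB : x ∈ B
      · have hc := h.comm
        have e : ∀ f : B →* ℂˣ, f.comp (normConj B hx) = f := fun f => MonoidHom.ext fun b =>
          congrArg f (Subtype.ext (by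
            have hcomm : (b : G) * x = x * b :=
              congrArg Subtype.val (hc.is_comm.comm b ⟨x, hxB⟩)
            rw [normConj_coe, mul_assoc, hcomm, inv_mul_cancel_left]))
        rw [if_pos hxB, if_pos (e l).symm, if_pos (e m).symm]
        ring
      · rw [if_neg hxB, if_neg fun e => hl (h.eq_one_of_fixed hx hxB l e.symm),
          if_neg fun e => hm (h.eq_one_of_fixed hx hxB m e.symm)]
        ring
    · have hxB : x ∉ B := fun hxB => hx (Subgroup.le_normalizer hxB)
      simp [dif_neg hx, if_neg hxB]
  rw [Finset.sum_congr rfl fun x _ => key x, ← Finset.sum_filter, Finset.sum_const, nsmul_eq_mul,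
    ← Fintype.card_subtype, ← Nat.card_eq_fintype_card]
  have hB : (Nat.card B : ℂ) ≠ 0 := natCard_ne_zero
  rw [show (Nat.card {x // x ∈ B} : ℂ) = (Nat.card B : ℂ) from rfl]
  field_simp

/-- The product of the values. -/
theorem map_mul_of_isConj {y u : G} (hcl : ∀ g : G, IsConj (y * (g * u * g⁻¹)) (y * u))
    (χ : IrrCharacter G) :
    (χ : G → ℂ) y * (χ : G → ℂ) u = (χ : G → ℂ) 1 * (χ : G → ℂ) (y * u) := by
  have h := sum_map_mul_conjugate χ y u
  simp only [fun a => eq_of_isConj (isClassFunction_coe χ) (hcl a), Finset.sum_const, Finset.card_univ,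
    nsmul_eq_mul, ← Nat.card_eq_fintype_card] at h
  rw [eq_div_iff (map_one_ne_zero χ), mul_assoc] at h
  rw [← mul_left_cancel₀ natCard_ne_zero h, mul_comm]

/-- All `y * u` are conjugate. -/
theorem isConj_mul_of_ti (h : TIData B) {y : G}
    (hy : ∀ (g u : G), u ∈ B → u ≠ 1 → g * u * g⁻¹ ≠ y) (hy1 : y ≠ 1)
    (hyu : ∀ u ∈ B, u ≠ 1 → ∀ (g v : G), v ∈ B → g * v * g⁻¹ ≠ y * u)
    (hcl : ∀ u ∈ B, u ≠ 1 → ∀ g : G, IsConj (y * (g * u * g⁻¹)) (y * u))
    {u u' : G} (hu : u ∈ B) (hu1 : u ≠ 1) (hu' : u' ∈ B) (hu1' : u' ≠ 1) :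
    IsConj (y * u) (y * u') := by
  classical
  haveI := Fintype.ofFinite B
  refine isConj_of_forall_eq fun χ => ?_
  have h1 := map_mul_of_isConj (hcl u hu hu1) χ
  have h2 := map_mul_of_isConj (hcl u' hu' hu1') χ
  refine mul_left_cancel₀ (map_one_ne_zero χ) ?_
  rw [← h1, ← h2]
  by_cases hχy : (χ : G → ℂ) y = 0
  · simp [hχy]
  congr 1
  -- the nontrivial linear characters occur in the restriction equally often
  have hcoef : ∀ l m : B →* ℂˣ, l ≠ 1 → m ≠ 1 →
      classInner (fun b : B => (χ : G → ℂ) b) (fun b : B => (l b : ℂ)) =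
      classInner (fun b : B => (χ : G → ℂ) b) (fun b : B => (m b : ℂ)) := by
    intro l m hl hm
    by_cases hlm : ∃ x, ∃ hx : x ∈ Subgroup.normalizer (B : Set G), l.comp (normConj B hx) = m
    · obtain ⟨x, hx, rfl⟩ := hlm
      simp only [classInner, MonoidHom.comp_apply]
      congr 1
      refine (Fintype.sum_bijective _ (normConj_bijective hx) _ _ fun b => ?_).symm
      congr 1
      rw [normConj_coe]
      simpa using (isClassFunction_coe χ (b : G) x⁻¹).symm
    · push Not at hlm
      set δ := indFun B (linDiff l m) with hδ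
      have hn := classInner_indFun_linDiff h hl hm hlm
      have hδ1 : δ 1 = 0 := by rw [hδ, Apps.indFun_at_one, linDiff_one, mul_zero]
      obtain ⟨μ, ν, hμ, hν, hμν, hδe'⟩ := Exceptional.gen_norm_two (isGen_indFun_linDiff l m) hn hδ1
      have hδe : δ = μ - ν := hδe'
      have hzero : ∀ z : G, (∀ g v : G, v ∈ B → v ≠ 1 → g * v * g⁻¹ ≠ z) → δ z = 0 := by
        intro z hz
        refine Apps.indFun_eq_zero_of_ti B {g | g ∈ B ∧ g ≠ 1} _ (fun b hb => ?_) z fun g hg => ?_
        · have : b = 1 := by
            by_contra hb1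
            exact hb ⟨b.2, fun h0 => hb1 (Subtype.ext h0)⟩
          rw [this, linDiff_one]
        · exact hz g _ hg.1 hg.2 (by group)
      let μ' : IrrCharacter G := ⟨μ, hμ⟩
      let ν' : IrrCharacter G := ⟨ν, hν⟩
      have ey : μ y = ν y := sub_eq_zero.1 (show (μ - ν) y = 0 by rw [← hδe]; exact hzero y hy)
      have e1 : μ 1 = ν 1 := sub_eq_zero.1 (show (μ - ν) 1 = 0 by rw [← hδe]; exact hδ1)
      have hμy : μ y = 0 := by
        by_contra hne0
        have hB0 : ∀ b : B, δ (b : G) = 0 := by
          intro b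
          by_cases hb : (b : G) = 1
          · rw [hb]; exact hδ1
          · have eu : μ (y * b) = ν (y * b) := sub_eq_zero.1 (show (μ - ν) (y * b) = 0 by
              rw [← hδe]; exact hzero _ fun g v hv _ => hyu b b.2 hb g v hv)
            have m1 := map_mul_of_isConj (hcl b b.2 hb) μ'
            have m2 := map_mul_of_isConj (hcl b b.2 hb) ν'
            change μ y * μ b = μ 1 * μ (y * b) at m1
            change ν y * ν b = ν 1 * ν (y * b) at m2
            rw [← ey, ← e1, ← eu, ← m1] at m2
            rw [hδe, Pi.sub_apply, mul_left_cancel₀ hne0 m2, sub_self]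
        rw [Apps.classInner_indFun_left B _ _ (Apps.indFun_isClassFunction B _)] at hn
        change classInner (linDiff l m) (fun b : B => δ b) = 2 at hn
        simp [classInner, hB0] at hn
      have hd : classInner δ (χ : G → ℂ) = 0 := by
        rw [hδe, classInner_sub_left, show classInner μ (χ : G → ℂ) = classInner (μ' : G → ℂ) χ from rfl,
          show classInner ν (χ : G → ℂ) = classInner (ν' : G → ℂ) χ from rfl,
          classInner_of_ne (fun e => hχy (by rw [← e]; exact hμy)),
          classInner_of_ne (fun e => hχy (by rw [← e]; exact ey.symm.trans hμy)), sub_zero]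
      rw [hδ, Apps.classInner_indFun_left B _ _ (isClassFunction_coe χ)] at hd
      have hd' : classInner (fun b : B => (l b : ℂ)) (fun b : B => (χ : G → ℂ) b) =
          classInner (fun b : B => (m b : ℂ)) (fun b : B => (χ : G → ℂ) b) := by
        rw [← sub_eq_zero, ← classInner_sub_left]; exact hd
      rw [← classInner_conj_symm (fun b : B => (l b : ℂ)), hd', classInner_conj_symm]
  -- so the restriction is constant off the identity
  haveI := h.comm
  have hres : IsCharacter B fun b : B => (χ : G → ℂ) b := isCharacter_restrict (isCharacter_coe χ) B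
  have hexp := fun b : B => eq_sum_classInner_mul (isClassFunction_of_isCharacter hres) b
  have hcol : ∀ b : B, b ≠ 1 → ∑ φ : IrrCharacter B, (φ : B → ℂ) b = 0 := by
    intro b hb
    have := sum_irr_mul_conj b (1 : B)
    rw [if_neg (fun e => hb (isConj_one_left.mp e))] at this
    simpa [map_one_eq_one_of_isMulCommutative] using this
  obtain ⟨φ0, hφ0⟩ : ∃ φ : IrrCharacter B, φ ≠ oneChar B := by
    by_contra! hall
    obtain ⟨b, hb⟩ : ∃ b : B, b ≠ 1 := by
      haveI := (Subgroup.nontrivial_iff_ne_bot B).2 h.ne_bot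
      exact exists_ne 1
    have := hcol b hb
    rw [Finset.sum_eq_single (oneChar B) (fun φ _ hφ => absurd (hall φ) hφ) (by simp), oneChar_apply] at this
    exact one_ne_zero this
  set c := classInner (fun b : B => (χ : G → ℂ) b) (φ0 : B → ℂ) with hc
  have hceq : ∀ φ : IrrCharacter B, φ ≠ oneChar B →
      classInner (fun b : B => (χ : G → ℂ) b) (φ : B → ℂ) = c := by
    intro φ hφ
    obtain ⟨l, rfl⟩ := exists_linChar_eq φ (map_one_eq_one_of_isMulCommutative φ)
    obtain ⟨m, rfl⟩ := exists_linChar_eq φ0 (map_one_eq_one_of_isMulCommutative φ0)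
    exact hcoef l m (fun e => hφ ((linChar_eq_oneChar_iff l).2 e))
      (fun e => hφ0 ((linChar_eq_oneChar_iff m).2 e))
  have hval : ∀ b : B, b ≠ 1 → (χ : G → ℂ) b =
      classInner (fun b : B => (χ : G → ℂ) b) (oneChar B : B → ℂ) - c := by
    intro b hb
    rw [hexp b, ← Finset.add_sum_erase _ _ (Finset.mem_univ (oneChar B)), oneChar_apply, mul_one,
      Finset.sum_congr rfl fun φ hφ => by rw [hceq φ (Finset.ne_of_mem_erase hφ)], ← Finset.mul_sum]
    have := hcol b hb
    rw [← Finset.add_sum_erase _ _ (Finset.mem_univ (oneChar B)), oneChar_apply] at this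
    linear_combination c * this
  rw [hval ⟨u, hu⟩ (fun e => hu1 (congrArg Subtype.val e)),
    hval ⟨u', hu'⟩ (fun e => hu1' (congrArg Subtype.val e))]

end CfsgLib.RankThree
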