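import Mathlib
import Cfsg.Agent.RankThree.Basic
import Cfsg.Agent.Chars.Apps.Burnside

/-!
Three class sizes with one centralizer inside another: the two smaller sizes are coprime and the
centralizers of the two kinds of elements are a pair of coprime subgroups with product the group.
-/

set_option autoImplicit false
set_option linter.unusedSectionVars false

namespace CfsgLib.RankThree

open CfsgLib.TwoSizes (cen mem_cen)
open CfsgLib.CoprimeLargest (idx idx_conj)

variable {G : Type*} [Group G] [Finite G]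

/-- One centralizer inside another one. -/
structure Conf (a y w : G) : Prop where
  hyp : Hyp G
  ha : a ≠ 1
  hy : y ≠ 1
  hw : w ≠ 1
  le : cen a ≤ cen y
  lt : idx y < idx a
  w_ne_a : idx w ≠ idx a
  w_ne_y : idx w ≠ idx y
  all : ∀ z : G, z ≠ 1 → idx z = idx a ∨ idx z = idx y ∨ idx z = idx w

namespace Conf

variable {a y w : G}

theorem dvd (C : Conf a y w) : idx y ∣ idx a := idx_dvd_of_le C.le

theorem coprime (C : Conf a y w) : (idx y).Coprime (idx w) := by
  by_contra hc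
  obtain ⟨r, hr, hry, hrw⟩ := Nat.Prime.not_coprime_iff_dvd.1 hc
  haveI := Fact.mk hr
  obtain ⟨z, hz, -, hzd⟩ := exists_central_in_sylow (R := (⊥ : Subgroup G)) IsPGroup.of_bot
    (hry.trans (Subgroup.index_dvd_card _))
  have hz1 : z ≠ 1 := fun h => hr.ne_one (by rw [← hz, h, orderOf_one])
  rcases C.all z hz1 with e | e | e <;> rw [e] at hzd
  · exact hzd (hry.trans C.dvd)
  · exact hzd hry
  · exact hzd hrw

theorem not_commute (C : Conf a y w) {s t : G} (hs : s ≠ 1) (ht : t ≠ 1) (e2 : idx s = idx y)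
    (e3 : idx t = idx w) : ¬ Commute s t :=
  C.hyp.not_commute_of_coprime hs ht (by rw [e2, e3]; exact C.coprime)

/-- A central element of a Sylow subgroup, for a prime dividing the middle size. -/
theorem idx_central (C : Conf a y w) {r : ℕ} {z : G} (hz : z ≠ 1) (hry : r ∣ idx y) (hzd : ¬ r ∣ idx z) :
    idx z = idx w := by
  rcases C.all z hz with e | e | e
  · exact absurd (e ▸ hry.trans C.dvd) hzd
  · exact absurd (e ▸ hry) hzd
  · exact e

theorem idx_y_pow (C : Conf a y w) {x : G} (e : idx x = idx y) {k : ℕ} (hk : x ^ k ≠ 1) :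
    idx (x ^ k) = idx y := by
  have hd : idx (x ^ k) ∣ idx y := e ▸ idx_dvd_of_le (cen_le_cen_pow x k)
  rcases C.all _ hk with h | h | h
  · exact absurd (Nat.le_of_dvd (Nat.pos_of_ne_zero Subgroup.index_ne_zero_of_finite) (h ▸ hd))
      (not_le.2 C.lt)
  · exact h
  · exact absurd (Nat.eq_one_of_dvd_coprimes C.coprime (h ▸ hd) dvd_rfl) (C.hyp.one_lt_idx C.hw).ne'

theorem idx_w_pow (C : Conf a y w) {x : G} (e : idx x = idx w) {k : ℕ} (hk : x ^ k ≠ 1) :
    idx (x ^ k) = idx w := by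
  have hd : idx (x ^ k) ∣ idx w := e ▸ idx_dvd_of_le (cen_le_cen_pow x k)
  rcases C.all _ hk with h | h | h
  · exact absurd (Nat.eq_one_of_dvd_coprimes C.coprime dvd_rfl (C.dvd.trans (h ▸ hd)))
      (C.hyp.one_lt_idx C.hy).ne'
  · exact absurd (Nat.eq_one_of_dvd_coprimes C.coprime dvd_rfl (h ▸ hd))
      (C.hyp.one_lt_idx C.hy).ne'
  · exact h

/-- One can take `y` and `w` of prime order. -/
theorem exists_prime (C : Conf a y w) : ∃ (y' w' : G), Conf a y' w' ∧
    (orderOf y').Prime ∧ (orderOf w').Prime := by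
  obtain ⟨p, hp, -, k, hk⟩ := CfsgLib.CN.exists_prime_power C.hy
  obtain ⟨q, hq, -, l, hl⟩ := CfsgLib.CN.exists_prime_power C.hw
  have hy1 : y ^ k ≠ 1 := fun h => hp.ne_one (by rw [← hk, h, orderOf_one])
  have hw1 : w ^ l ≠ 1 := fun h => hq.ne_one (by rw [← hl, h, orderOf_one])
  have ey := C.idx_y_pow rfl hy1
  have ew := C.idx_w_pow rfl hw1
  refine ⟨y ^ k, w ^ l, ⟨C.hyp, C.ha, hy1, hw1, C.le.trans (cen_le_cen_pow y k), ?_, ?_, ?_, ?_⟩,
    hk ▸ hp, hl ▸ hq⟩
  · rw [ey]; exact C.lt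
  · rw [ew]; exact C.w_ne_a
  · rw [ew, ey]; exact C.w_ne_y
  · rw [ey, ew]; exact C.all

/-- An `r`-element of middle type: `r` does not divide the middle size. -/
theorem not_dvd_of_y (C : Conf a y w) {r : ℕ} [Fact r.Prime] {x : G} (hx : orderOf x = r)
    (e : idx x = idx y) : ¬ r ∣ idx y := by
  intro hd
  have hr : r.Prime := Fact.out
  obtain ⟨z, hz, hle, hzd⟩ := exists_central_in_sylow (isPGroup_zpowers hx)
    (hd.trans (Subgroup.index_dvd_card _))
  have hz1 : z ≠ 1 := fun h => hr.ne_one (by rw [← hz, h, orderOf_one])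
  have hx1 : x ≠ 1 := fun h => hr.ne_one (by rw [← hx, h, orderOf_one])
  exact C.not_commute hx1 hz1 e (C.idx_central hz1 hd hzd) (mem_cen.1 (hle (Subgroup.mem_zpowers x)))

/-- An `r`-element of the third type: `r` divides the middle size. -/
theorem dvd_of_w (C : Conf a y w) {r : ℕ} [Fact r.Prime] {x : G} (hx : orderOf x = r)
    (e : idx x = idx w) : r ∣ idx y := by
  by_contra hd
  have hr : r.Prime := Fact.out
  have hx1 : x ≠ 1 := fun h => hr.ne_one (by rw [← hx, h, orderOf_one])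
  obtain ⟨c, hc⟩ := (isPGroup_zpowers hx).nonempty_fixed_point_of_prime_not_dvd_card (G ⧸ cen y) hd
  obtain ⟨g, rfl⟩ := QuotientGroup.mk_surjective c
  have h1 : ((x * g : G) : G ⧸ cen y) = (g : G ⧸ cen y) :=
    MulAction.mem_fixedPoints.1 hc ⟨x, Subgroup.mem_zpowers x⟩
  have h2 : g⁻¹ * x * g ∈ cen y := by
    have := QuotientGroup.eq.1 h1.symm
    rwa [← mul_assoc] at this
  have e' : idx (g⁻¹ * x * g) = idx w := by
    have := idx_conj x g⁻¹
    rw [inv_inv] at this
    rw [this, e]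
  refine C.not_commute C.hy (fun h => hx1 ?_) rfl e' (mem_cen.1 h2 : Commute _ _).symm
  calc x = g * (g⁻¹ * x * g) * g⁻¹ := by group
    _ = 1 := by rw [h]; group

theorem ne_one_of_orderOf {r : ℕ} (hr : r.Prime) {v : G} (hv : orderOf v = r) : v ≠ 1 :=
  fun h => hr.ne_one (by rw [← hv, h, orderOf_one])

theorem exists_orderOf {H : Subgroup G} {r : ℕ} (hr : r.Prime) (hd : r ∣ Nat.card H) :
    ∃ v ∈ H, orderOf v = r := by
  haveI := Fact.mk hr
  obtain ⟨v, hv⟩ := exists_prime_orderOf_dvd_card' r hd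
  exact ⟨v, v.2, by rw [Subgroup.orderOf_coe, hv]⟩

theorem not_dvd_cen_y (C : Conf a y w) (hp : (orderOf y).Prime) {r : ℕ} (hr : r.Prime)
    (hry : r ∣ idx y) : ¬ r ∣ Nat.card (cen y) := by
  intro hd
  haveI := Fact.mk hr
  haveI := Fact.mk hp
  obtain ⟨v, hv, hvo⟩ := exists_orderOf hr hd
  have hv1 := ne_one_of_orderOf hr hvo
  have hvy : Commute v y := mem_cen.1 hv
  have ev : idx v = idx a := by
    rcases C.all v hv1 with e | e | e
    · exact e
    · exact absurd hry (C.not_dvd_of_y hvo e)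
    · exact absurd hvy.symm (C.not_commute C.hy hv1 rfl e)
  have hne : r ≠ orderOf y := fun h => C.not_dvd_of_y rfl rfl (h ▸ hry)
  have hcop : (orderOf v).Coprime (orderOf y) := by rw [hvo]; exact (Nat.coprime_primes hr hp).2 hne
  have hinf := cen_mul_eq_inf hvy hcop
  have hle : cen (v * y) ≤ cen v := hinf.le.trans inf_le_left
  have hd1 : idx a ∣ idx (v * y) := ev ▸ idx_dvd_of_le hle
  have hvy1 := mul_ne_one_of_coprime hvy hcop hv1
  have e : idx (v * y) = idx a := by
    rcases C.all _ hvy1 with e | e | e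
    · exact e
    · rw [e] at hd1
      exact absurd (Nat.le_of_dvd (Nat.pos_of_ne_zero Subgroup.index_ne_zero_of_finite) hd1)
        (not_le.2 C.lt)
    · exact absurd (Nat.eq_one_of_dvd_coprimes C.coprime dvd_rfl (C.dvd.trans (e ▸ hd1)))
        (C.hyp.one_lt_idx C.hy).ne'
  have hvle : cen v ≤ cen y :=
    (cen_eq_of_le_of_idx hle (e.trans ev.symm)) ▸ hinf.le.trans inf_le_right
  obtain ⟨z, hz, hzle, hzd⟩ := exists_central_in_sylow (isPGroup_zpowers hvo)
    (hd.trans (Subgroup.card_subgroup_dvd_card _))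
  have hz1 := ne_one_of_orderOf hr hz
  have hzv : z ∈ cen v := mem_cen.2 (mem_cen.1 (hzle (Subgroup.mem_zpowers v))).symm
  exact C.not_commute C.hy hz1 rfl (C.idx_central hz1 hry hzd) (mem_cen.1 (hvle hzv) : Commute z y).symm

theorem coprime_cen_y (C : Conf a y w) (hp : (orderOf y).Prime) :
    (Nat.card (cen y)).Coprime (idx y) := by
  by_contra hc
  obtain ⟨r, hr, hr1, hr2⟩ := Nat.Prime.not_coprime_iff_dvd.1 hc
  exact C.not_dvd_cen_y hp hr hr2 hr1

theorem dvd_cen_w (C : Conf a y w) (hp : (orderOf y).Prime) (hq : (orderOf w).Prime) {r : ℕ}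
    (hr : r.Prime) (hd : r ∣ Nat.card (cen w)) : r ∣ idx y := by
  by_contra hry
  haveI := Fact.mk hr
  haveI := Fact.mk hq
  obtain ⟨v, hv, hvo⟩ := exists_orderOf hr hd
  have hv1 := ne_one_of_orderOf hr hvo
  have hvw : Commute v w := mem_cen.1 hv
  have ev : idx v = idx a := by
    rcases C.all v hv1 with e | e | e
    · exact e
    · exact absurd hvw (C.not_commute hv1 C.hw e rfl)
    · exact absurd (C.dvd_of_w hvo e) hry
  have hqy : orderOf w ∣ idx y := C.dvd_of_w rfl rfl
  have h1 : orderOf w ∣ Nat.card (cen v) :=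
    Subgroup.orderOf_dvd_natCard _ (mem_cen.2 hvw.symm.eq)
  have h2 : Nat.card (cen v) = Nat.card (cen a) := by
    have := card_mul_idx v
    rw [ev, ← card_mul_idx a] at this
    exact Nat.eq_of_mul_eq_mul_right (Nat.pos_of_ne_zero Subgroup.index_ne_zero_of_finite) this
  rw [h2] at h1
  exact hq.ne_one (Nat.eq_one_of_dvd_coprimes (C.coprime_cen_y hp)
    (h1.trans (Subgroup.card_dvd_of_le C.le)) hqy)

theorem card_cen (C : Conf a y w) (hp : (orderOf y).Prime) (hq : (orderOf w).Prime) :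
    Nat.card (cen y) = idx w ∧ Nat.card (cen w) = idx y := by
  have hc3 : (Nat.card (cen y)).Coprime (Nat.card (cen w)) := by
    by_contra hc
    obtain ⟨r, hr, hr1, hr2⟩ := Nat.Prime.not_coprime_iff_dvd.1 hc
    exact C.not_dvd_cen_y hp hr (C.dvd_cen_w hp hq hr hr2) hr1
  have e : Nat.card (cen y) * idx y = Nat.card (cen w) * idx w :=
    (card_mul_idx y).trans (card_mul_idx w).symm
  have h1 : Nat.card (cen y) ∣ idx w := hc3.dvd_of_dvd_mul_left (e ▸ dvd_mul_right _ _)
  have h2 : idx w ∣ Nat.card (cen y) := C.coprime.symm.dvd_of_dvd_mul_right (e ▸ dvd_mul_left _ _)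
  have h3 := Nat.dvd_antisymm h1 h2
  refine ⟨h3, ?_⟩
  rw [h3, mul_comm] at e
  exact (Nat.eq_of_mul_eq_mul_right (Nat.pos_of_ne_zero Subgroup.index_ne_zero_of_finite) e).symm

theorem card_eq (C : Conf a y w) (hp : (orderOf y).Prime) (hq : (orderOf w).Prime) :
    Nat.card G = idx y * idx w := by
  rw [← card_mul_idx y, (C.card_cen hp hq).1, mul_comm]

theorem idx_of_mem_cen_w (C : Conf a y w) (hp : (orderOf y).Prime) (hq : (orderOf w).Prime) {u : G}
    (hu : u ∈ cen w) (hu1 : u ≠ 1) : idx u = idx w := by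
  have h3 : orderOf u ∣ idx y := (C.card_cen hp hq).2 ▸ Subgroup.orderOf_dvd_natCard _ hu
  have key : ∀ H : Subgroup G, u ∈ H → Nat.card H ∣ Nat.card (cen y) → False := fun H hH hd =>
    hu1 (orderOf_eq_one_iff.1 (Nat.eq_one_of_dvd_coprimes (C.coprime_cen_y hp)
      ((Subgroup.orderOf_dvd_natCard _ hH).trans hd) h3))
  have self : u ∈ cen u := mem_cen.2 rfl
  rcases C.all u hu1 with e | e | e
  · refine (key _ self ?_).elim
    have h2 : Nat.card (cen u) = Nat.card (cen a) := by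
      have := card_mul_idx u
      rw [e, ← card_mul_idx a] at this
      exact Nat.eq_of_mul_eq_mul_right (Nat.pos_of_ne_zero Subgroup.index_ne_zero_of_finite) this
    exact h2 ▸ Subgroup.card_dvd_of_le C.le
  · refine (key _ self ?_).elim
    have := card_mul_idx u
    rw [e, ← card_mul_idx y] at this
    exact dvd_of_eq (Nat.eq_of_mul_eq_mul_right (Nat.pos_of_ne_zero Subgroup.index_ne_zero_of_finite) this)
  · exact e

theorem idx_y_not_isPrimePow (C : Conf a y w) {s k : ℕ} (hs : s.Prime) : idx y ≠ s ^ k :=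
  haveI := C.hyp.simple
  CfsgLib.Chars.Apps.not_prime_pow_index_centralizer_of_isSimpleGroup C.hyp.na hs y C.hy

/-- Every nonidentity element of the centralizer of `w` has that centralizer. -/
theorem cen_eq (C : Conf a y w) (hp : (orderOf y).Prime) (hq : (orderOf w).Prime) {u : G}
    (hu : u ∈ cen w) (hu1 : u ≠ 1) : cen u = cen w := by
  have step : ∀ v v' : G, v ∈ cen w → v' ∈ cen w → Commute v v' → (orderOf v).Prime → (orderOf v').Prime →
      orderOf v ≠ orderOf v' → cen v = cen v' := by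
    intro v v' hv hv' hvv hpv hpv' hne
    have hcop := (Nat.coprime_primes hpv hpv').2 hne
    have h1 : v ≠ 1 := ne_one_of_orderOf hpv rfl
    have h1' : v' ≠ 1 := ne_one_of_orderOf hpv' rfl
    have hinf := cen_mul_eq_inf hvv hcop
    have e := C.idx_of_mem_cen_w hp hq (mul_mem hv hv') (mul_ne_one_of_coprime hvv hcop h1)
    exact ((cen_eq_of_le_of_idx (hinf.le.trans inf_le_left) (e.trans (C.idx_of_mem_cen_w hp hq hv h1).symm)).symm).trans
      (cen_eq_of_le_of_idx (hinf.le.trans inf_le_right) (e.trans (C.idx_of_mem_cen_w hp hq hv' h1').symm))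
  obtain ⟨s, hs, hsd, hne⟩ : ∃ s, s.Prime ∧ s ∣ Nat.card (cen w) ∧ s ≠ orderOf w := by
    by_contra! hall
    rw [(C.card_cen hp hq).2] at hall
    refine C.idx_y_not_isPrimePow hq (k := (idx y).primeFactorsList.length) ?_
    exact Nat.eq_prime_pow_of_unique_prime_dvd Subgroup.index_ne_zero_of_finite
      fun {d} hd hdd => hall d hd hdd
  obtain ⟨v, hv, hvo⟩ := exists_orderOf hs hsd
  have hwmem : w ∈ cen w := mem_cen.2 rfl
  have evw : cen v = cen w := step v w hv hwmem (mem_cen.1 hv) (hvo ▸ hs) hq (hvo ▸ hne)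
  obtain ⟨r, hr, -, k, hk⟩ := CfsgLib.CN.exists_prime_power hu1
  have hukB : u ^ k ∈ cen w := pow_mem hu k
  have huk : u ^ k ≠ 1 := ne_one_of_orderOf hr hk
  have e : cen (u ^ k) = cen w := by
    by_cases hrq : r = orderOf w
    · have hmem : u ^ k ∈ cen v := evw ▸ hukB
      rw [← evw]
      exact step _ v hukB hv (mem_cen.1 hmem) (hk ▸ hr) (hvo ▸ hs) (by rw [hk, hvo, hrq]; exact hne.symm)
    · exact step _ w hukB hwmem (mem_cen.1 hukB) (hk ▸ hr) hq (hk ▸ hrq)
  exact cen_eq_of_le_of_idx ((cen_le_cen_pow u k).trans e.le) (C.idx_of_mem_cen_w hp hq hu hu1)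

theorem inf_eq_bot (C : Conf a y w) (hp : (orderOf y).Prime) (hq : (orderOf w).Prime) :
    cen y ⊓ cen w = ⊥ := by
  rw [eq_bot_iff]
  intro g hg
  rw [Subgroup.mem_bot, ← orderOf_eq_one_iff]
  refine Nat.eq_one_of_dvd_coprimes (C.coprime_cen_y hp) (Subgroup.orderOf_dvd_natCard _ hg.1) ?_
  exact (C.card_cen hp hq).2 ▸ Subgroup.orderOf_dvd_natCard _ hg.2

theorem exists_mul (C : Conf a y w) (g : G) : ∃ c ∈ cen y, ∃ b ∈ cen w, g = c * b :=
  CfsgLib.Product.exists_mul_of_coprime_index C.coprime g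

end Conf

end CfsgLib.RankThree
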