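import Mathlib
import Cfsg.Agent.RankThree.Local
import Cfsg.Agent.RankThree.Characters

/-!
In a simple group with three class sizes no centralizer is inside another one.
-/

set_option autoImplicit false
set_option linter.unusedSectionVars false

namespace CfsgLib.RankThree

open CfsgLib.TwoSizes (cen mem_cen)
open CfsgLib.CoprimeLargest (idx idx_conj idx_mul_comm class_mul exists_normal_commutators cls ncard_cls)

variable {G : Type*} [Group G] [Finite G]

theorem cen_conj_card (x g : G) : Nat.card (cen (g * x * g⁻¹)) = Nat.card (cen x) := by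
  have h := card_mul_idx (g * x * g⁻¹)
  rw [idx_conj, ← card_mul_idx x] at h
  exact Nat.eq_of_mul_eq_mul_right (Nat.pos_of_ne_zero Subgroup.index_ne_zero_of_finite) h

theorem cen_conj_mem {x g h : G} (hh : h ∈ cen x) : g * h * g⁻¹ ∈ cen (g * x * g⁻¹) := by
  rw [mem_cen]
  calc g * h * g⁻¹ * (g * x * g⁻¹) = g * (h * x) * g⁻¹ := by group
    _ = g * (x * h) * g⁻¹ := by rw [mem_cen.1 hh]
    _ = _ := by group

namespace Conf

variable {a y w : G} (C : Conf a y w) (hp : (orderOf y).Prime) (hq : (orderOf w).Prime)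
include C hp hq

theorem tiData : TIData (cen w) where
  ne_bot h := C.hw (by
    have : w ∈ cen w := mem_cen.2 rfl
    rwa [h, Subgroup.mem_bot] at this)
  cent u hu hu1 := C.cen_eq hp hq hu hu1
  ti g u hu hu1 hg := by
    have h1 := C.cen_eq hp hq hu hu1
    have hgu : g * u * g⁻¹ ≠ 1 := fun h => hu1 (conj_eq_one_iff.1 h)
    have h2 := C.cen_eq hp hq hg hgu
    rw [Subgroup.mem_normalizer_iff]
    intro v
    constructor
    · intro hv
      rw [← h1] at hv
      rw [← h2]
      exact cen_conj_mem hv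
    · intro hv
      rw [← h2] at hv
      rw [← h1]
      have := cen_conj_mem (g := g⁻¹) hv
      simpa [mul_assoc] using this

theorem idx_y_mul {u : G} (hu : u ∈ cen w) (hu1 : u ≠ 1) : y * u ≠ 1 ∧ idx (y * u) = idx a := by
  have hne : y * u ≠ 1 := by
    intro h
    have hy : y = u⁻¹ := eq_inv_of_mul_eq_one_left h
    have hmem : y ∈ cen y ⊓ cen w := ⟨mem_cen.2 rfl, by rw [hy]; exact (cen w).inv_mem hu⟩
    rw [C.inf_eq_bot hp hq, Subgroup.mem_bot] at hmem
    exact C.hy hmem
  refine ⟨hne, ?_⟩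
  haveI := C.hyp.simple
  have eu := C.idx_of_mem_cen_w hp hq hu hu1
  have hbad : ∀ {N : Subgroup G} {s : G} {m : ℕ}, N.Normal → Nat.card N ∣ m → s ≠ 1 → m < Nat.card G → 0 < m →
      (∀ g : G, s⁻¹ * (g * s * g⁻¹) ∈ N) → False := by
    intro N s m hN hd hs hm hm0 hc
    rcases hN.eq_bot_or_eq_top with rfl | rfl
    · exact C.hyp.cen_ne_top hs (eq_top_iff.2 fun g _ => mem_cen.2 (mul_inv_eq_iff_eq_mul.1
        (inv_mul_eq_one.1 (Subgroup.mem_bot.1 (hc g))).symm))
    · rw [Subgroup.card_top] at hd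
      exact absurd (Nat.le_of_dvd hm0 hd) (not_le.2 hm)
  have h0y : 0 < idx y := Nat.pos_of_ne_zero Subgroup.index_ne_zero_of_finite
  have h0w : 0 < idx w := Nat.pos_of_ne_zero Subgroup.index_ne_zero_of_finite
  rcases C.all _ hne with e | e | e
  · exact e
  · obtain ⟨N, hN, hd, hc⟩ := exists_normal_commutators (a := u) (b := y)
      (by rw [eu]; exact C.coprime.symm) (by rw [idx_mul_comm, e])
    refine (hbad hN hd hu1 ?_ h0y hc).elim
    rw [C.card_eq hp hq]
    exact lt_mul_of_one_lt_right h0y (C.hyp.one_lt_idx C.hw)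
  · obtain ⟨N, hN, hd, hc⟩ := exists_normal_commutators (a := y) (b := u)
      (by rw [eu]; exact C.coprime) (by rw [eu, e])
    refine (hbad hN hd C.hy ?_ (eu ▸ h0w) hc).elim
    rw [eu, C.card_eq hp hq]
    exact lt_mul_of_one_lt_left h0w (C.hyp.one_lt_idx C.hy)

theorem isConj_y_mul {u : G} (hu : u ∈ cen w) (hu1 : u ≠ 1) :
    IsConj (y * u) (y * w) := by
  haveI := Fintype.ofFinite G
  have hy1 : ∀ (g v : G), v ∈ cen w → v ≠ 1 → g * v * g⁻¹ ≠ y := by
    intro g v hv hv1 h
    have := C.idx_of_mem_cen_w hp hq hv hv1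
    rw [← idx_conj v g, h] at this
    exact C.w_ne_y this.symm
  refine isConj_mul_of_ti (C.tiData hp hq) hy1 C.hy ?_ ?_ hu hu1 (mem_cen.2 rfl) C.hw
  · intro u hu hu1 g v hv h
    by_cases hv1 : v = 1
    · rw [hv1, mul_one, mul_inv_cancel] at h
      exact (C.idx_y_mul hp hq hu hu1).1 h.symm
    · have := C.idx_of_mem_cen_w hp hq hv hv1
      rw [← idx_conj v g, h, (C.idx_y_mul hp hq hu hu1).2] at this
      exact C.w_ne_a this.symm
  · intro u hu hu1 g
    obtain ⟨l, hl⟩ := class_mul (a := y) (b := u)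
      (by rw [C.idx_of_mem_cen_w hp hq hu hu1]; exact C.coprime) 1 g
    rw [show (1 : G) * y * 1⁻¹ = y by group] at hl
    exact isConj_iff.2 ⟨l⁻¹, by rw [hl]; group⟩

/-- `cen y ⊓ normalizer (cen w)`, the complement in the normalizer. -/
theorem exists_complement : ∃ E : Subgroup G, 2 * Nat.card E ≤ Nat.card (cen a) ∧
    ∀ g ∈ Subgroup.normalizer (cen w : Set G), ∃ e ∈ E, ∃ b ∈ cen w, g = e * b := by
  haveI := C.hyp.simple
  have hpf : Fact (orderOf y).Prime := ⟨hp⟩
  set N := Subgroup.normalizer (cen w : Set G) with hN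
  have hNtop : N ≠ ⊤ := by
    intro ht
    have hnorm : (cen w).Normal := Subgroup.normalizer_eq_top_iff.1 ht
    rcases hnorm.eq_bot_or_eq_top with h | h
    · have : w ∈ cen w := mem_cen.2 rfl
      rw [h, Subgroup.mem_bot] at this
      exact C.hw this
    · exact C.hyp.cen_ne_top C.hw h
  -- only the identity of `N` centralizes `cen y`
  have hZ : ∀ z ∈ cen y, (∀ c ∈ cen y, Commute z c) → z ∈ N → z = 1 := by
    intro z hz hc hzN
    have hcore : z ∈ N.normalCore := by
      intro g
      obtain ⟨c, hcm, b, hb, rfl⟩ := C.exists_mul g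
      have e : b * z * b⁻¹ ∈ N := mul_mem (mul_mem (Subgroup.le_normalizer hb) hzN)
        (inv_mem (Subgroup.le_normalizer hb))
      obtain ⟨c', hcm', b', hb', he⟩ := C.exists_mul (c * b)
      -- write the product the other way round
      obtain ⟨c'', hcm'', b'', hb'', he''⟩ := C.exists_mul (c * b)⁻¹
      have e3 : c * b = b''⁻¹ * c''⁻¹ := by
        rw [← mul_inv_rev, ← he'', inv_inv]
      rw [e3]
      have hzc : c''⁻¹ * z * c''⁻¹⁻¹ = z := by
        rw [← (hc _ (inv_mem hcm'')).eq, mul_inv_cancel_right]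
      have : b''⁻¹ * c''⁻¹ * z * (b''⁻¹ * c''⁻¹)⁻¹ = b''⁻¹ * z * b''⁻¹⁻¹ := by
        calc b''⁻¹ * c''⁻¹ * z * (b''⁻¹ * c''⁻¹)⁻¹ = b''⁻¹ * (c''⁻¹ * z * c''⁻¹⁻¹) * b''⁻¹⁻¹ := by group
          _ = _ := by rw [hzc]
      rw [this]
      exact mul_mem (mul_mem (Subgroup.le_normalizer (inv_mem hb'')) hzN)
        (inv_mem (Subgroup.le_normalizer (inv_mem hb'')))
    rcases (Subgroup.normalCore_normal N).eq_bot_or_eq_top with h | h
    · rwa [h, Subgroup.mem_bot] at hcore
    · exact absurd (eq_top_iff.2 (h ▸ N.normalCore_le)) hNtop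
  set E := cen y ⊓ N with hE
  have hcenE : ∀ e ∈ E, e ≠ 1 → Nat.card (cen e) = Nat.card (cen a) := by
    intro e he he1
    have hle : cen e ≤ cen y := by
      intro g hg
      obtain ⟨c, hc, b, hb, rfl⟩ := C.exists_mul g
      have hge : Commute (c * b) e := mem_cen.1 hg
      have h1 : b * e * b⁻¹ = c⁻¹ * e * c := by
        calc b * e * b⁻¹ = c⁻¹ * (c * b * e) * b⁻¹ := by group
          _ = c⁻¹ * (e * (c * b)) * b⁻¹ := by rw [hge.eq]
          _ = _ := by group
      have h2 : b * e * b⁻¹ * e⁻¹ ∈ cen y := by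
        rw [h1]; exact mul_mem (mul_mem (mul_mem (inv_mem hc) he.1) hc) (inv_mem he.1)
      have h3 : b * e * b⁻¹ * e⁻¹ ∈ cen w := by
        rw [show b * e * b⁻¹ * e⁻¹ = b * (e * b⁻¹ * e⁻¹) by group]
        exact mul_mem hb ((Subgroup.mem_normalizer_iff.1 he.2 b⁻¹).1 (inv_mem hb))
      have h4 : b * e * b⁻¹ * e⁻¹ ∈ cen y ⊓ cen w := ⟨h2, h3⟩
      rw [C.inf_eq_bot hp hq, Subgroup.mem_bot, mul_inv_eq_one, mul_inv_eq_iff_eq_mul] at h4
      by_cases hb1 : b = 1
      · simpa [hb1] using hc
      · have he' : e ∈ cen b := mem_cen.2 h4.symm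
        rw [C.cen_eq hp hq hb hb1] at he'
        have : e ∈ cen y ⊓ cen w := ⟨he.1, he'⟩
        rw [C.inf_eq_bot hp hq, Subgroup.mem_bot] at this
        exact absurd this he1
    have hd : idx y ∣ idx e := idx_dvd_of_le hle
    rcases C.all e he1 with h | h | h
    · have := card_mul_idx e
      rw [h, ← card_mul_idx a] at this
      exact Nat.eq_of_mul_eq_mul_right (Nat.pos_of_ne_zero Subgroup.index_ne_zero_of_finite) this
    · have heq := cen_eq_of_le_of_idx hle h
      refine absurd (hZ e he.1 (fun c hc => ?_) he.2) he1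
      exact (mem_cen.1 (heq.symm ▸ hc : c ∈ cen e) : Commute c e).symm
    · exact absurd (Nat.eq_one_of_dvd_coprimes C.coprime dvd_rfl (h ▸ hd)) (C.hyp.one_lt_idx C.hy).ne'
  refine ⟨E, ?_, fun g hg => ?_⟩
  swap
  · obtain ⟨c, hc, b, hb, rfl⟩ := C.exists_mul g
    refine ⟨c, ⟨hc, ?_⟩, b, hb, rfl⟩
    have := mul_mem hg (inv_mem (Subgroup.le_normalizer hb))
    rwa [mul_inv_cancel_right] at this
  have h2a : 2 ≤ Nat.card (cen a) := by
    haveI : Nontrivial (cen a) :=
      ⟨⟨⟨a, mem_cen.2 rfl⟩, 1, fun h => C.ha (congrArg Subtype.val h)⟩⟩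
    exact Finite.one_lt_card
  by_cases hEb : E = ⊥
  · rw [hEb, Subgroup.card_bot]; omega
  have hpart : ∀ r k : ℕ, r.Prime → 0 < k → r ^ k ∣ Nat.card E → r ^ k * orderOf y ∣ Nat.card (cen a) := by
    intro r k hr hk hd
    haveI := Fact.mk hr
    obtain ⟨R, hR⟩ := Sylow.exists_subgroup_card_pow_prime r hd
    have hRp : IsPGroup r R := IsPGroup.of_card hR
    haveI : Nontrivial R := Finite.one_lt_card_iff_nontrivial.1 (by rw [hR]; exact Nat.one_lt_pow hk.ne' hr.one_lt)
    haveI := hRp.center_nontrivial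
    obtain ⟨⟨ε, hεc⟩, hε⟩ := exists_ne (1 : Subgroup.center R)
    set e : G := ((ε : E) : G) with he
    have he1 : e ≠ 1 := fun h => hε (Subtype.ext (Subtype.ext (Subtype.ext h)))
    rw [← hcenE e (ε : E).2 he1]
    have hyc : ∀ f : E, Commute (f : G) y := fun f => mem_cen.1 f.2.1
    let φ : R × Subgroup.zpowers y →* cen e :=
      { toFun := fun s => ⟨((s.1 : E) : G) * (s.2 : G), by
          refine mul_mem (mem_cen.2 ?_) ?_
          · exact congrArg (fun t : R => ((t : E) : G)) (Subgroup.mem_center_iff.1 hεc s.1)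
          · obtain ⟨m, hm⟩ := Subgroup.mem_zpowers_iff.1 s.2.2
            rw [← hm]
            exact mem_cen.2 ((hyc (ε : E)).zpow_right m).symm.eq⟩
        map_one' := Subtype.ext (by simp)
        map_mul' := fun s t => Subtype.ext (by
          obtain ⟨m, hm⟩ := Subgroup.mem_zpowers_iff.1 s.2.2
          have hcomm : Commute ((t.1 : E) : G) (s.2 : G) := by
            rw [← hm]; exact (hyc (t.1 : E)).zpow_right m
          simp only [Prod.fst_mul, Prod.snd_mul, Subgroup.coe_mul]
          exact (hcomm.mul_mul_mul_comm ((s.1 : E) : G) (t.2 : G))) }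
    have hinj : Function.Injective φ := by
      rw [injective_iff_map_eq_one]
      rintro ⟨s, ⟨t, ht⟩⟩ hst
      have h1 : ((s : E) : G) * t = 1 := congrArg Subtype.val hst
      have htN : t ∈ N := by
        rw [eq_inv_of_mul_eq_one_right h1]; exact inv_mem (s : E).2.2
      have ht1 : t = 1 := by
        obtain ⟨m, rfl⟩ := Subgroup.mem_zpowers_iff.1 ht
        refine hZ _ (zpow_mem (mem_cen.2 rfl) m) (fun c hc => ?_) htN
        exact ((show Commute c y from mem_cen.1 hc).zpow_right m).symm
      subst ht1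
      rw [mul_one] at h1
      exact Prod.ext (Subtype.ext (Subtype.ext h1)) rfl
    have hcard : Nat.card φ.range = r ^ k * orderOf y := by
      rw [← Nat.card_congr (MonoidHom.ofInjective hinj).toEquiv, Nat.card_prod, hR, Nat.card_zpowers]
    exact hcard ▸ Subgroup.card_subgroup_dvd_card φ.range
  have hp1 : orderOf y ∣ Nat.card (cen a) := by
    obtain ⟨r, hr, hrd⟩ := Nat.exists_prime_and_dvd (fun h => hEb (Subgroup.card_eq_one.1 h))
    exact (dvd_mul_left _ _).trans (hpart r 1 hr one_pos (by rwa [pow_one]))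
  have hdiv : Nat.card E ∣ Nat.card (cen a) / orderOf y := by
    rw [Nat.dvd_iff_prime_pow_dvd_dvd]
    intro r k hr hd
    rcases Nat.eq_zero_or_pos k with rfl | hk
    · simp
    · exact (Nat.dvd_div_iff_mul_dvd hp1).2 (mul_comm (orderOf y) _ ▸ hpart r k hr hk hd)
  have hle := Nat.le_of_dvd (Nat.div_pos (Nat.le_of_dvd Nat.card_pos hp1) hp.pos) hdiv
  calc 2 * Nat.card E ≤ orderOf y * (Nat.card (cen a) / orderOf y) := Nat.mul_le_mul hp.two_le hle
    _ ≤ _ := Nat.mul_div_le _ _

/-- The final count. -/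
theorem contradiction : False := by
  classical
  haveI := Fintype.ofFinite G
  obtain ⟨E, hE, hNE⟩ := C.exists_complement hp hq
  set B := cen w with hB
  let U : Finset G := Finset.univ.filter fun u => u ∈ B ∧ u ≠ 1
  let Y : Finset G := Finset.univ.filter fun s => s ∈ cls y
  let R : G → G → Prop := fun u s => IsConj u (s⁻¹ * (y * w))
  have hUcard : U.card + 1 = idx y := by
    have h1 : (Finset.univ.filter fun u : G => u ∈ B).card = idx y := by
      rw [← Fintype.card_subtype, ← Nat.card_eq_fintype_card]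
      exact (C.card_cen hp hq).2
    have h2 : U = (Finset.univ.filter fun u : G => u ∈ B).erase 1 := by
      ext u; simp [U, and_comm]
    rw [h2, Finset.card_erase_add_one (by simp), h1]
  have hYcard : Y.card = idx y := by
    rw [← ncard_cls y, ← Set.ncard_coe_finset]
    congr 1; ext s; simp [Y]
  have hwmem : w ∈ B := mem_cen.2 rfl
  have hlow : ∀ u ∈ U, Nat.card (cen a) ≤ (Finset.bipartiteAbove R Y u).card := by
    intro u hu
    simp only [U, Finset.mem_filter, Finset.mem_univ, true_and] at hu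
    obtain ⟨g, hg⟩ := isConj_iff.1 (C.isConj_y_mul hp hq hu.1 hu.2)
    set y' := g * y * g⁻¹ with hy'
    set u' := g * u * g⁻¹ with hu'
    have hx0 : y * w = y' * u' := by rw [← hg, hy', hu']; group
    have hc1 : Nat.card (cen (y * w)) = Nat.card (cen a) := by
      have h := card_mul_idx (y * w)
      rw [(C.idx_y_mul hp hq hwmem C.hw).2, ← card_mul_idx a] at h
      exact Nat.eq_of_mul_eq_mul_right (Nat.pos_of_ne_zero Subgroup.index_ne_zero_of_finite) h
    have e' : y'⁻¹ * (y * w) = u' := by rw [hx0, inv_mul_cancel_left]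
    let f : cen (y * w) → G := fun c => (c : G) * y' * (c : G)⁻¹
    have hf : Function.Injective f := by
      intro c c' h
      set d := (c' : G)⁻¹ * c with hd
      have hd1 : d ∈ cen y' := by
        rw [mem_cen, hd]
        simp only [f] at h
        calc (c' : G)⁻¹ * c * y' = (c' : G)⁻¹ * ((c : G) * y' * (c : G)⁻¹) * c := by group
          _ = (c' : G)⁻¹ * ((c' : G) * y' * (c' : G)⁻¹) * c := by rw [h]
          _ = _ := by group
      have hd0 : d ∈ cen (y * w) := mul_mem (inv_mem c'.2) c.2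
      have hd2 : d ∈ cen u' := by
        have e : u' = y'⁻¹ * (y * w) := by rw [hx0, inv_mul_cancel_left]
        rw [mem_cen, e]
        exact ((show Commute d y' from mem_cen.1 hd1).inv_right.mul_right (show Commute d (y * w) from mem_cen.1 hd0)).eq
      have o1 : orderOf d ∣ Nat.card (cen y) := cen_conj_card y g ▸ Subgroup.orderOf_dvd_natCard _ hd1
      have o2 : orderOf d ∣ idx y := by
        have := Subgroup.orderOf_dvd_natCard _ hd2
        rw [hu', cen_conj_card, C.cen_eq hp hq hu.1 hu.2, (C.card_cen hp hq).2] at this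
        exact this
      have := orderOf_eq_one_iff.1 (Nat.eq_one_of_dvd_coprimes (C.coprime_cen_y hp) o1 o2)
      exact Subtype.ext (inv_mul_eq_one.1 this).symm
    calc Nat.card (cen a) = (Finset.univ.image f).card := by
          rw [Finset.card_image_of_injective _ hf, Finset.card_univ, ← Nat.card_eq_fintype_card, hc1]
      _ ≤ _ := Finset.card_le_card fun s hs => by
          simp only [Finset.mem_image, Finset.mem_univ, true_and] at hs
          obtain ⟨c, rfl⟩ := hs
          simp only [Finset.bipartiteAbove, Y, R, Finset.mem_filter, Finset.mem_univ, true_and]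
          refine ⟨⟨(c : G) * g, by simp only [f, hy']; group⟩, isConj_iff.2 ⟨(c : G) * g, ?_⟩⟩
          have hc : (c : G) * (y * w) = y * w * c := mem_cen.1 c.2
          calc (c : G) * g * u * ((c : G) * g)⁻¹ = (c : G) * (y'⁻¹ * (y * w)) * (c : G)⁻¹ := by
                rw [e', hu']; group
            _ = (f c)⁻¹ * ((c : G) * (y * w) * (c : G)⁻¹) := by simp only [f]; group
            _ = _ := by rw [hc, mul_inv_cancel_right]
  have hhigh : ∀ s ∈ Y, (Finset.bipartiteBelow R U s).card ≤ Nat.card E := by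
    intro s _
    rcases (Finset.bipartiteBelow R U s).eq_empty_or_nonempty with h | ⟨u0, hu0⟩
    · simp [h]
    simp only [Finset.bipartiteBelow, U, R, Finset.mem_filter, Finset.mem_univ, true_and] at hu0
    calc (Finset.bipartiteBelow R U s).card
        ≤ (Finset.univ.image fun e : E => (e : G) * u0 * (e : G)⁻¹).card := Finset.card_le_card fun u hu => by
          simp only [Finset.bipartiteBelow, U, R, Finset.mem_filter, Finset.mem_univ, true_and] at hu
          obtain ⟨g, hg⟩ := isConj_iff.1 (hu0.2.trans hu.2.symm)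
          have hgN := (C.tiData hp hq).ti g u0 hu0.1.1 hu0.1.2 (hg ▸ hu.1.1)
          obtain ⟨e, he, b, hb, rfl⟩ := hNE g hgN
          simp only [Finset.mem_image, Finset.mem_univ, true_and]
          refine ⟨⟨e, he⟩, ?_⟩
          rw [← hg]
          have hcomm : b * u0 = u0 * b := by
            have hb' : b ∈ cen u0 := by rw [C.cen_eq hp hq hu0.1.1 hu0.1.2]; exact hb
            exact mem_cen.1 hb'
          calc e * u0 * e⁻¹ = e * (u0 * b) * b⁻¹ * e⁻¹ := by group
            _ = e * (b * u0) * b⁻¹ * e⁻¹ := by rw [hcomm]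
            _ = _ := by group
      _ ≤ _ := Finset.card_image_le.trans (by rw [Finset.card_univ, Nat.card_eq_fintype_card])
  have hcount := Finset.sum_card_bipartiteAbove_eq_sum_card_bipartiteBelow (s := U) (t := Y) R
  have h1 : U.card * Nat.card (cen a) ≤ idx y * Nat.card E :=
    calc U.card * Nat.card (cen a) ≤ ∑ u ∈ U, (Finset.bipartiteAbove R Y u).card := by
          rw [← smul_eq_mul]; exact Finset.card_nsmul_le_sum _ _ _ hlow
      _ = _ := hcount
      _ ≤ Y.card * Nat.card E := by
          simpa only [smul_eq_mul] using Finset.sum_le_card_nsmul Y _ _ hhigh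
      _ = _ := by rw [hYcard]
  have hEpos : 0 < Nat.card E := Nat.card_pos
  have h3 : 2 ≠ idx y := fun h => C.idx_y_not_isPrimePow (k := 1) Nat.prime_two (by rw [← h, pow_one])
  have h4 := C.hyp.one_lt_idx C.hy
  have h5 : U.card * (2 * Nat.card E) ≤ (U.card + 1) * Nat.card E :=
    (Nat.mul_le_mul_left U.card hE).trans (by rw [hUcard]; exact h1)
  have : U.card ≤ 1 := by
    by_contra h6
    have := Nat.mul_le_mul_right (Nat.card E) (show 2 ≤ U.card by omega)
    ring_nf at h5 this
    omega
  omega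

end Conf

/-- No centralizer of a nonidentity element is strictly inside another one. -/
theorem cen_eq_of_le (h : Hyp G) {x z : G} (hx : x ≠ 1) (hz : z ≠ 1) (hle : cen x ≤ cen z) :
    cen x = cen z := by
  by_contra hne
  have hlt : idx z < idx x := Subgroup.index_strictAnti (lt_of_le_of_ne hle hne)
  obtain ⟨v, hv, hv1, hv2, hall⟩ := h.exists_third hx hz hlt.ne'
  have C : Conf x z v := ⟨h, hx, hz, hv, hle, hlt, hv1, hv2, hall⟩
  obtain ⟨y', w', C', hp, hq⟩ := C.exists_prime
  exact C'.contradiction hp hq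

end CfsgLib.RankThree
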