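import Mathlib
import Cfsg.Agent.SL2.Elements
import Cfsg.Agent.Classical.Linear.Simple
import Cfsg.Agent.CAGroups.SimpleAbelianCentralizers

/-!
`PSL₂(2^m)` has exactly three sizes of nontrivial classes.
-/

set_option autoImplicit false

namespace CfsgLib.RankThree

open CfsgLib.SL2

variable {F : Type*} [Field F] [Fintype F] [CharP F 2]

local notation "SL₂" F => Matrix.SpecialLinearGroup (Fin 2) F

theorem two_zero : (2 : F) = 0 := CharTwo.two_eq_zero

theorem four_zero : (4 : F) = 0 := by
  rw [show (4 : F) = 2 * 2 by norm_num, two_zero, mul_zero]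

theorem centralizer_u {s : F} (hs : s ≠ 0) :
    Subgroup.centralizer ({u s} : Set (SL₂ F)) = U := by
  have hc : u s ∉ Subgroup.center (SL₂ F) := by
    rw [center_eq_bot, Subgroup.mem_bot, u_eq_one_iff]; exact hs
  ext h
  constructor
  · intro hh
    obtain ⟨x, y, hxy⟩ := (mem_centralizer_iff_exists hc).1 hh
    have h10 : h 1 0 = 0 := by rw [hxy]; simp
    have h00 : h 0 0 = x + y := by rw [hxy]; simp
    have h11 : h 1 1 = x + y := by rw [hxy]; simp
    have hd := det_eq h
    rw [h10, h00, h11, mul_zero, sub_zero] at hd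
    have h1 : x + y = 1 := by
      have e : (x + y - 1) * (x + y - 1) = 0 := by linear_combination hd + (1 - x - y) * two_zero (F := F)
      exact sub_eq_zero.1 (mul_self_eq_zero.1 e)
    refine ⟨Multiplicative.ofAdd (h 0 1), ?_⟩
    show u (h 0 1) = h
    apply ext4 <;> simp [h10, h00, h11, h1]
  · rintro ⟨t, rfl⟩
    rw [Subgroup.mem_centralizer_singleton_iff]
    show uHom t * uHom _ = uHom _ * uHom t
    rw [← map_mul, ← map_mul, mul_comm]

theorem card_centralizer_cases {g : SL₂ F} (hg : g ≠ 1) :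
    Nat.card (Subgroup.centralizer ({g} : Set (SL₂ F))) = Fintype.card F ∨
    Nat.card (Subgroup.centralizer ({g} : Set (SL₂ F))) = Fintype.card F - 1 ∨
    Nat.card (Subgroup.centralizer ({g} : Set (SL₂ F))) = Fintype.card F + 1 := by
  by_cases ht : tr g ^ 2 = 4
  · rw [four_zero, sq_eq_zero_iff] at ht
    obtain ⟨s, hs, hc⟩ := exists_isConj_u hg (ht.trans two_zero.symm)
    left
    rw [← card_centralizer_eq_of_isConj hc, centralizer_u hs, U_nat_card, Nat.card_eq_fintype_card]
  · by_cases hs : IsSplitTrace (tr g)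
    · exact Or.inr (Or.inl (card_centralizer_split ht hs))
    · exact Or.inr (Or.inr (card_centralizer_nonsplit hs))

theorem exists_card_centralizer (h4 : 4 ≤ Fintype.card F) :
    (∃ g : SL₂ F, g ≠ 1 ∧ Nat.card (Subgroup.centralizer ({g} : Set (SL₂ F))) = Fintype.card F) ∧
    (∃ g : SL₂ F, g ≠ 1 ∧ Nat.card (Subgroup.centralizer ({g} : Set (SL₂ F))) = Fintype.card F - 1) ∧
    (∃ g : SL₂ F, g ≠ 1 ∧ Nat.card (Subgroup.centralizer ({g} : Set (SL₂ F))) = Fintype.card F + 1) := by
  refine ⟨⟨u 1, by simp, ?_⟩, ?_, ?_⟩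
  · rw [centralizer_u one_ne_zero, U_nat_card, Nat.card_eq_fintype_card]
  · obtain ⟨a, ha⟩ : ∃ a : Fˣ, a * a ≠ 1 := by
      by_contra! hall
      classical
      have : ∀ a : Fˣ, a = 1 := fun a => Units.ext (by
        have h := congrArg Units.val (hall a)
        simp only [Units.val_mul, Units.val_one] at h
        have e : ((a : F) - 1) * ((a : F) - 1) = 0 := by
          linear_combination h + (1 - (a : F)) * two_zero (F := F)
        exact sub_eq_zero.1 (mul_self_eq_zero.1 e))
      have h1 : Fintype.card Fˣ ≤ 1 := Fintype.card_le_one_iff.2 fun x y => (this x).trans (this y).symm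
      rw [Fintype.card_units] at h1
      omega
    refine ⟨d a, fun h => ha ?_, ?_⟩
    · have ha1 : a = 1 := d_injective (h.trans (map_one d).symm)
      rw [ha1, mul_one]
    · rw [centralizer_d ha, T_nat_card, Nat.card_eq_fintype_card]
  · obtain ⟨g, hg, -, hc⟩ := exists_card_centralizer_eq_add_one (F := F)
    refine ⟨g, fun h => ?_, hc⟩
    have : (Subgroup.centralizer ({g} : Set (SL₂ F))) = ⊤ := by
      rw [h, eq_top_iff]; intro x _; simp [Subgroup.mem_centralizer_singleton_iff]
    rw [this, Subgroup.card_top, card_SL] at hc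
    have : 4 * 4 ≤ Fintype.card F ^ 2 := by rw [pow_two]; exact Nat.mul_le_mul h4 h4
    have : Fintype.card F * 2 ≤ Fintype.card F * (Fintype.card F ^ 2 - 1) := Nat.mul_le_mul_left _ (by omega)
    omega

theorem ncard_idx_sl2 (h4 : 4 ≤ Fintype.card F) :
    Set.ncard {n : ℕ | ∃ x : SL₂ F, x ∉ Subgroup.center (SL₂ F) ∧
      n = (Subgroup.centralizer ({x} : Set (SL₂ F))).index} = 3 := by
  set N := Nat.card (SL₂ F) with hN
  have hdiv : ∀ x : SL₂ F, (Subgroup.centralizer ({x} : Set (SL₂ F))).index =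
      N / Nat.card (Subgroup.centralizer ({x} : Set (SL₂ F))) := fun x => by
    rw [hN, ← Subgroup.card_mul_index (Subgroup.centralizer ({x} : Set (SL₂ F))),
      Nat.mul_div_cancel_left _ Nat.card_pos]
  obtain ⟨⟨g1, hg1, e1⟩, ⟨g2, hg2, e2⟩, ⟨g3, hg3, e3⟩⟩ := exists_card_centralizer h4
  set q := Fintype.card F with hq
  have d1 : q ∣ N := e1 ▸ Subgroup.card_subgroup_dvd_card _
  have d2 : q - 1 ∣ N := e2 ▸ Subgroup.card_subgroup_dvd_card _
  have d3 : q + 1 ∣ N := e3 ▸ Subgroup.card_subgroup_dvd_card _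
  have key : ∀ a b : ℕ, a ∣ N → b ∣ N → N / a = N / b → a = b := fun a b ha hb h => by
    rw [← Nat.div_div_self ha Nat.card_pos.ne', h, Nat.div_div_self hb Nat.card_pos.ne']
  refine Set.ncard_eq_three.2 ⟨N / q, N / (q - 1), N / (q + 1), ?_, ?_, ?_, ?_⟩
  · intro h; have := key _ _ d1 d2 h; omega
  · intro h; have := key _ _ d1 d3 h; omega
  · intro h; have := key _ _ d2 d3 h; omega
  ext n
  simp only [Set.mem_ofPred_eq, center_eq_bot, Subgroup.mem_bot, Set.mem_insert_iff, Set.mem_singleton_iff]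
  constructor
  · rintro ⟨x, hx, rfl⟩
    rw [hdiv x]
    rcases card_centralizer_cases hx with h | h | h <;> rw [h] <;> simp [hq]
  · rintro (rfl | rfl | rfl)
    · exact ⟨g1, hg1, by rw [hdiv g1, e1]⟩
    · exact ⟨g2, hg2, by rw [hdiv g2, e2]⟩
    · exact ⟨g3, hg3, by rw [hdiv g3, e3]⟩

theorem center_map_iff {G H : Type*} [Group G] [Group H] (e : G ≃* H) (x : G) :
    e x ∈ Subgroup.center H ↔ x ∈ Subgroup.center G := by
  simp only [Subgroup.mem_center_iff]
  exact ⟨fun h g => e.injective (by simpa using h (e g)),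
    fun h g => by obtain ⟨g, rfl⟩ := e.surjective g; simpa using congrArg e (h g)⟩

theorem idx_set_congr {G H : Type*} [Group G] [Group H] (e : G ≃* H) :
    {n : ℕ | ∃ x : G, x ∉ Subgroup.center G ∧ n = (Subgroup.centralizer ({x} : Set G)).index} =
    {n : ℕ | ∃ x : H, x ∉ Subgroup.center H ∧ n = (Subgroup.centralizer ({x} : Set H)).index} := by
  have hm : ∀ x : G, (Subgroup.centralizer ({x} : Set G)).index =
      (Subgroup.centralizer ({e x} : Set H)).index := fun x => by
    rw [show Subgroup.centralizer ({x} : Set G) =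
      (Subgroup.centralizer ({e x} : Set H)).comap e.toMonoidHom from ?_]
    · exact Subgroup.index_comap_of_surjective _ e.surjective
    ext g
    simp only [Subgroup.mem_comap, Subgroup.mem_centralizer_singleton_iff, MulEquiv.coe_toMonoidHom,
      ← map_mul, e.injective.eq_iff]
  ext n
  constructor
  · rintro ⟨x, hx, rfl⟩
    exact ⟨e x, fun h => hx ((center_map_iff e x).1 h), hm x⟩
  · rintro ⟨x, hx, rfl⟩
    obtain ⟨x, rfl⟩ := e.surjective x
    exact ⟨x, fun h => hx ((center_map_iff e x).2 h), (hm x).symm⟩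

end CfsgLib.RankThree
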